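import Cfsg.Agent.H333.EB.Quo
import Cfsg.Agent.H474.ONC.Gen
import Cfsg.Agent.Blocks.CyclicUpper
import Cfsg.Agent.M22.BDataOfBlocks
import Cfsg.Agent.SmallSimple.SelfCentPrime
import Cfsg.Agent.H686.CharKit

/-!
# `Nsum` for a group of order 20160 of characteristic two type (helper333)

`|Q| = 20160`, `C_Q(y) = ⟨y⟩` for `y` of order 5, `C_Q(t)` a 2-group for the involutions `t`.

* `vanish`: the characters outside `B₀(2)` vanish at the 2-elements `≠ 1`;
* `deg_eq`: they have degree 64;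
* `avg`: the sum of a class function over the elements of order `p`, `p ∥ |Q|`;
* `coef_mem`: the coefficients of `sing 5 Q` at the characters outside `B₀(2)` are in the local ideal;
* `main`: `Nsum M 5 Q y` is not in the local ideal.
-/

set_option autoImplicit false
set_option linter.unusedSectionVars false

namespace Cfsg.Agent.H333.EB.L34

open Cfsg Subgroup
open Cfsg.Agent.Characters
open Cfsg.Agent.Blocks
open Cfsg.Agent.H333.EB.P1 Cfsg.Agent.H333.EB.Quo
open scoped ComplexConjugate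

universe u v

section

variable {Q : Type u} [Group Q] [Fintype Q] {M : Ideal AlgInt}

/-- the characters outside the principal block vanish at a `p`-element whose centralizer is a `p`-group -/
theorem vanish {p : ℕ} [hp : Fact p.Prime] (hM : IsPModular p M) {t : Q} (ht : ∃ k : ℕ, orderOf t = p ^ k)
    (hC : IsPGroup p (centralizer ({t} : Set Q))) (χ : IrrCharacter Q) (hχ : χ ∉ principalBlock M Q) :
    (χ : Q → ℂ) t = 0 := by
  classical
  have : Finite (IrrCharacter Q) := Core.finite_irr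
  have := Fintype.ofFinite (IrrCharacter Q)
  have h1p : ¬ p ∣ orderOf (1 : centralizer ({t} : Set Q)) := by
    rw [orderOf_one]
    exact fun h => hp.out.ne_one (Nat.dvd_one.1 h)
  have h1 := PrincipalSection.sum_principalBlock_section hM t ht rfl (1 : centralizer ({t} : Set Q)) 1 h1p h1p
  obtain ⟨n, hn⟩ := IsPGroup.iff_card.1 hC
  have hcore : pPrimeCore p (centralizer ({t} : Set Q)) = ⊥ := by
    rw [← card_eq_one]
    have h2 := (Lib.Cores.pPrimeCore_coprime (G := centralizer ({t} : Set Q)) p)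
    have h3 := card_subgroup_dvd_card (pPrimeCore p (centralizer ({t} : Set Q)))
    rw [hn] at h3
    exact Nat.eq_one_of_dvd_coprimes (h2.pow_right n) dvd_rfl h3
  rw [PrincipalSection.sum_principalBlock_of_pComplement hM ⟨n, by rw [hcore, index_bot, hn]⟩ h1p h1p,
    Orthogonality.finsum_mem_eq_sum_filter, OneMemClass.coe_one, mul_one] at h1
  have h4 : p ^ (Nat.card (centralizer ({t} : Set Q))).factorization p = Nat.card (centralizer ({t} : Set Q)) := by
    rw [hn, hp.out.factorization_pow]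
    simp
  rw [h4] at h1
  have h5 := H686.CharKit.col_orth t t
  rw [if_pos (IsConj.refl t), ← h1,
    ← Finset.sum_filter_add_sum_filter_not Finset.univ (fun χ : IrrCharacter Q => χ ∈ principalBlock M Q),
    add_eq_left] at h5
  have h3 : ∀ χ : IrrCharacter Q, (χ : Q → ℂ) t * conj ((χ : Q → ℂ) t) =
      ((Complex.normSq ((χ : Q → ℂ) t) : ℝ) : ℂ) := fun χ => Complex.mul_conj _
  rw [Finset.sum_congr rfl fun χ _ => h3 χ, ← Complex.ofReal_sum, Complex.ofReal_eq_zero,
    Finset.sum_eq_zero_iff_of_nonneg fun χ _ => Complex.normSq_nonneg _] at h5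
  exact Complex.normSq_eq_zero.1 (h5 χ (Finset.mem_filter.2 ⟨Finset.mem_univ _, hχ⟩))

/-- the characters outside the principal block have degree 64 -/
theorem deg_eq (hM : IsPModular 2 M) (hQ : Nat.card Q = 20160)
    (h2 : ∀ t : Q, orderOf t = 2 → IsPGroup 2 (centralizer ({t} : Set Q))) (χ : IrrCharacter Q)
    (hχ : χ ∉ principalBlock M Q) : charDegree (χ : Q → ℂ) = 64 := by
  classical
  have : Fact (Nat.Prime 2) := ⟨Nat.prime_two⟩
  have : Finite (IrrCharacter Q) := Core.finite_irr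
  have := Fintype.ofFinite (IrrCharacter Q)
  -- vanishing
  have hv : ∀ t : Q, t ≠ 1 → (∃ k : ℕ, orderOf t = 2 ^ k) → (χ : Q → ℂ) t = 0 := by
    rintro t ht ⟨k, hk⟩
    refine vanish hM ⟨k, hk⟩ ?_ χ hχ
    rcases k with _ | k
    · rw [pow_zero, orderOf_eq_one_iff] at hk
      exact absurd hk ht
    · have h3 : orderOf (t ^ 2 ^ k) = 2 := by
        rw [orderOf_pow_of_dvd (by positivity) ⟨2, by rw [hk, pow_succ]⟩, hk, pow_succ,
          Nat.mul_div_cancel_left _ (by positivity)]
      refine (h2 _ h3).to_le ?_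
      intro c hc
      rw [mem_centralizer_singleton_iff] at hc ⊢
      exact ((show Commute c t from hc).pow_right _).eq
  obtain ⟨P⟩ : Nonempty (Sylow 2 Q) := inferInstance
  have hP : Nat.card P = 64 := by
    rw [P.card_eq_multiplicity, hQ]
    have : (20160 : ℕ).factorization 2 = 6 := by
      have h3 : (20160 : ℕ) = 2 ^ 6 * 315 := by norm_num
      rw [h3, Nat.factorization_mul (by norm_num) (by norm_num), Finsupp.add_apply, Nat.prime_two.factorization_pow,
        Nat.factorization_eq_zero_of_not_dvd (by norm_num : ¬ 2 ∣ 315)]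
      simp
    rw [this]
    norm_num
  obtain ⟨m, hm⟩ := M22.BDataOfBlocks.exists_sum_eq (Core.isIrr_isCharacter χ.2) (P : Subgroup Q)
  have h1 : ∑ x : (P : Subgroup Q), (χ : Q → ℂ) x = (χ : Q → ℂ) 1 := by
    rw [Finset.sum_eq_single (1 : (P : Subgroup Q))]
    · rw [OneMemClass.coe_one]
    · intro x _ hx
      refine hv x (fun h => hx (Subtype.ext h)) ?_
      obtain ⟨k, hk⟩ := (IsPGroup.iff_orderOf.1 P.isPGroup') x
      exact ⟨k, by rw [← hk]; exact (orderOf_coe x)⟩
    · intro h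
      exact absurd (Finset.mem_univ _) h
  have hdeg : (χ : Q → ℂ) 1 = (charDegree (χ : Q → ℂ) : ℂ) := Basic.irr_one_eq_charDegree χ.2
  rw [h1, hdeg] at hm
  have hP' : Nat.card (P : Subgroup Q) = 64 := hP
  rw [hP'] at hm
  have h3 : charDegree (χ : Q → ℂ) = 64 * m := by exact_mod_cast hm
  have h4 := CyclicUpper.charDegree_dvd χ.2
  rw [hQ, h3] at h4
  have h5 : charDegree (χ : Q → ℂ) ^ 2 ≤ 20160 := by
    rw [← hQ, ← H686.CharKit.sum_deg_sq]
    exact Finset.single_le_sum (f := fun χ : IrrCharacter Q => charDegree (χ : Q → ℂ) ^ 2) (fun _ _ => Nat.zero_le _)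
      (Finset.mem_univ χ)
  rw [h3] at h5 ⊢
  have h6 : m ≤ 2 := by
    by_contra h7
    have h8 : 3 ≤ m := by omega
    nlinarith
  interval_cases m
  · norm_num at h4
  · norm_num
  · norm_num at h4

/-- the sum of a class function over the elements of order `p`, `p ∥ |Q|` -/
theorem avg {p : ℕ} [hp : Fact p.Prime] (hp2 : ¬ p ^ 2 ∣ Nat.card Q) (hself : ∀ g : Q, p ∣ orderOf g → orderOf g = p)
    {y : Q} (hy : orderOf y = p) [Fintype (zpowers y)] {f : Q → ℂ} (hf : IsClassFunction Q f) :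
    (Nat.card (normalizer ((zpowers y : Subgroup Q) : Set Q)) : ℂ) * ∑ g : Q, sing p Q g * f g =
      (Nat.card Q : ℂ) * (∑ s : zpowers y, f s - f 1) := by
  classical
  have h1p : ¬ p ∣ 1 := fun h => hp.out.ne_one (Nat.dvd_one.1 h)
  -- the double sum
  have hA : ∀ g : Q, ∑ s : Q, (if s ≠ 1 ∧ g⁻¹ * s * g ∈ zpowers y then f s else 0) = ∑ s : zpowers y, f s - f 1 := by
    intro g
    have h1 : ∑ s : Q, (if s ≠ 1 ∧ g⁻¹ * s * g ∈ zpowers y then f s else 0) =
        ∑ s : Q, (if s ≠ 1 ∧ s ∈ zpowers y then f s else 0) := by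
      refine Fintype.sum_equiv (MulAut.conj g⁻¹).toEquiv _ _ fun s => ?_
      have h2 : (MulAut.conj g⁻¹).toEquiv s = g⁻¹ * s * g := by simp
      have h3 : f (g⁻¹ * s * g) = f s := by
        have := hf s g⁻¹
        rwa [inv_inv] at this
      have h4 : g⁻¹ * s * g ≠ 1 ↔ s ≠ 1 := by
        rw [not_iff_not]
        constructor
        · intro h
          have : s = g * (g⁻¹ * s * g) * g⁻¹ := by group
          rw [this, h]
          group
        · rintro rfl
          group
      rw [h2, h3]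
      exact if_congr (and_congr_left fun _ => h4.symm) rfl rfl
    rw [h1, ← Finset.sum_filter]
    have h5 : ∑ s : zpowers y, f s = ∑ s : Q with s ∈ zpowers y, f s := by
      symm
      exact Finset.sum_subtype _ (by simp) _
    rw [h5, ← Finset.sum_filter_add_sum_filter_not (Finset.univ.filter (· ∈ zpowers y)) (fun s : Q => s ≠ 1),
      Finset.filter_filter, Finset.filter_filter]
    have h6 : Finset.univ.filter (fun s : Q => s ∈ zpowers y ∧ ¬ s ≠ 1) = {1} := by
      ext s
      rw [Finset.mem_filter, Finset.mem_singleton, not_not]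
      exact ⟨fun h => h.2.2, fun h => ⟨Finset.mem_univ _, by rw [h]; exact one_mem _, h⟩⟩
    rw [h6, Finset.sum_singleton, add_sub_cancel_right]
    refine Finset.sum_congr ?_ fun _ _ => rfl
    ext s
    simp only [Finset.mem_filter, Finset.mem_univ, true_and]
    exact and_comm
  have hB : ∀ s : Q, ∑ g : Q, (if s ≠ 1 ∧ g⁻¹ * s * g ∈ zpowers y then f s else 0) =
      (Nat.card (normalizer ((zpowers y : Subgroup Q) : Set Q)) : ℂ) * (sing p Q s * f s) := by
    intro s
    by_cases hs : p ∣ orderOf s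
    · have hsp := hself s hs
      have hs1 : s ≠ 1 := by
        rintro rfl
        rw [orderOf_one] at hs
        exact h1p hs
      rw [sing_of_dvd hs, one_mul, ← Finset.sum_filter, Finset.sum_const, nsmul_eq_mul]
      congr 2
      obtain ⟨c, hc⟩ := CpAutON.Gen.conj_into hp2 hsp hy
      have hw : orderOf (c * s * c⁻¹) = p := by
        have := MulEquiv.orderOf_eq (MulAut.conj c) s
        rw [← hsp, ← this]
        rfl
      have hw1 : c * s * c⁻¹ ≠ 1 := by
        intro h
        rw [h, orderOf_one] at hw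
        exact hp.out.ne_one hw.symm
      have hwy := SmallSimple.SelfCentPrime.zpowers_eq_of_mem hy hc hw1
      have hfin : Nat.card (normalizer ((zpowers y : Subgroup Q) : Set Q)) =
          (Finset.univ.filter (fun n : Q => n ∈ normalizer ((zpowers y : Subgroup Q) : Set Q))).card := by
        rw [← Fintype.card_subtype, ← Nat.card_eq_fintype_card]
      rw [hfin]
      refine Finset.card_bij' (fun g _ => g⁻¹ * c⁻¹) (fun n _ => c⁻¹ * n⁻¹) ?_ ?_ ?_ ?_
      · intro g hg
        have hg' := (Finset.mem_filter.1 hg).2.2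
        refine Finset.mem_filter.2 ⟨Finset.mem_univ _, ?_⟩
        rw [← hwy]
        refine H474.ONC.mem_normalizer_of_conj ?_
        have e : g⁻¹ * c⁻¹ * (c * s * c⁻¹) * (g⁻¹ * c⁻¹)⁻¹ = g⁻¹ * s * g := by group
        rw [e, hwy]
        exact hg'
      · intro n hn
        have hn' := (Finset.mem_filter.1 hn).2
        refine Finset.mem_filter.2 ⟨Finset.mem_univ _, hs1, ?_⟩
        have e : (c⁻¹ * n⁻¹)⁻¹ * s * (c⁻¹ * n⁻¹) = n * (c * s * c⁻¹) * n⁻¹ := by group
        rw [e]
        exact (mem_normalizer_iff.1 hn' _).1 hc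
      · intro g _
        group
      · intro n _
        group
    · rw [sing_of_not_dvd hs, zero_mul, mul_zero]
      refine Finset.sum_eq_zero fun g _ => ?_
      rw [if_neg]
      rintro ⟨h1, h2⟩
      have h3 : orderOf (g⁻¹ * s * g) = orderOf s := by
        have := MulEquiv.orderOf_eq (MulAut.conj g⁻¹) s
        simpa using this
      have h4 : g⁻¹ * s * g ≠ 1 := by
        intro h
        apply h1
        have : s = g * (g⁻¹ * s * g) * g⁻¹ := by group
        rw [this, h]
        group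
      have h5 := SmallSimple.SelfCentPrime.zpowers_eq_of_mem hy h2 h4
      have h6 : orderOf (g⁻¹ * s * g) = p := by
        rw [← Nat.card_zpowers, h5, Nat.card_zpowers, hy]
      rw [h3] at h6
      exact hs (by rw [h6])
  calc (Nat.card (normalizer ((zpowers y : Subgroup Q) : Set Q)) : ℂ) * ∑ g : Q, sing p Q g * f g
      = ∑ s : Q, ∑ g : Q, (if s ≠ 1 ∧ g⁻¹ * s * g ∈ zpowers y then f s else 0) := by
        rw [Finset.mul_sum]
        exact Finset.sum_congr rfl fun s _ => (hB s).symm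
    _ = ∑ g : Q, ∑ s : Q, (if s ≠ 1 ∧ g⁻¹ * s * g ∈ zpowers y then f s else 0) := Finset.sum_comm
    _ = (Nat.card Q : ℂ) * (∑ s : zpowers y, f s - f 1) := by
        rw [Finset.sum_congr rfl fun g _ => hA g, Finset.sum_const, nsmul_eq_mul, Finset.card_univ,
          Nat.card_eq_fintype_card]

/-! ### Order 20160 -/

theorem self_of (h5 : ∀ y : Q, orderOf y = 5 → Nat.card (centralizer ({y} : Set Q)) = 5) (g : Q)
    (hg : 5 ∣ orderOf g) : orderOf g = 5 := by
  obtain ⟨m, hm⟩ := hg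
  have hm0 : m ≠ 0 := by
    rintro rfl
    rw [mul_zero] at hm
    exact (orderOf_pos g).ne' hm
  have h4 : orderOf (g ^ m) = 5 := by
    rw [orderOf_pow_of_dvd hm0 (Dvd.intro_left 5 hm.symm), hm, Nat.mul_div_cancel _ (Nat.pos_of_ne_zero hm0)]
  have h6 := orderOf_dvd_natCard (⟨g, mem_centralizer_singleton_iff.2 ((Commute.self_pow g m)).eq⟩ :
    centralizer ({g ^ m} : Set Q))
  rw [h5 _ h4, ← orderOf_coe] at h6
  have h6' : orderOf g ∣ 5 := h6
  exact Nat.dvd_antisymm h6' ⟨m, hm⟩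

theorem not_25 (hQ : Nat.card Q = 20160) : ¬ 5 ^ 2 ∣ Nat.card Q := by
  rw [hQ]
  norm_num

theorem card_norm (hQ : Nat.card Q = 20160)
    (h5 : ∀ y : Q, orderOf y = 5 → Nat.card (centralizer ({y} : Set Q)) = 5) {y : Q} (hy : orderOf y = 5) :
    Nat.card (normalizer ((zpowers y : Subgroup Q) : Set Q)) = 10 := by
  have : Fact (Nat.Prime 5) := ⟨by norm_num⟩
  obtain ⟨n, hn, hcard⟩ := CpAutON.Gen.card_eq (not_25 hQ) hy
  have h1 := CpAutON.Gen.card_normalizer y
  have h2 := H474.ONC.range_dvd hy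
  rw [h5 y hy, hQ] at hcard
  rw [h5 y hy] at h1
  rw [h1]
  generalize Nat.card ↥((zpowers y).normalizerMonoidHom).range = ρ at hcard h2
  have h3 : ρ ≤ 4 := Nat.le_of_dvd (by norm_num) h2
  interval_cases ρ
  · norm_num at h2
  · omega
  · norm_num
  · norm_num at h2
  · omega

theorem coef_formula (hQ : Nat.card Q = 20160)
    (h5 : ∀ y : Q, orderOf y = 5 → Nat.card (centralizer ({y} : Set Q)) = 5) {y : Q} (hy : orderOf y = 5)
    (χ : IrrCharacter Q) : ∃ m : ℕ, classInner (sing 5 Q) (χ : Q → ℂ) =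
      (5 * (m : ℂ) - charDegree (χ : Q → ℂ)) / 10 := by
  classical
  have : Fact (Nat.Prime 5) := ⟨by norm_num⟩
  have := Fintype.ofFinite (zpowers y)
  obtain ⟨m, hm⟩ := M22.BDataOfBlocks.exists_sum_eq (Core.isIrr_isCharacter χ.2) (zpowers y)
  rw [Nat.card_zpowers, hy] at hm
  refine ⟨m, ?_⟩
  have h1 := avg (not_25 hQ) (self_of h5) hy (f := fun g => conj ((χ : Q → ℂ) g)) (by
    intro g t
    show conj _ = conj _
    rw [Basic.irr_conj χ.2])
  rw [card_norm hQ h5 hy] at h1
  have h2 : ∑ s : zpowers y, conj ((χ : Q → ℂ) s) = 5 * (m : ℂ) := by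
    rw [← map_sum, hm, map_mul, Complex.conj_natCast, Complex.conj_natCast]
    norm_num
  have h3 : conj ((χ : Q → ℂ) 1) = (charDegree (χ : Q → ℂ) : ℂ) := by
    rw [Basic.irr_one_eq_charDegree χ.2, Complex.conj_natCast]
  have h1' : ((10 : ℕ) : ℂ) * ∑ g : Q, sing 5 Q g * conj ((χ : Q → ℂ) g) =
      (Nat.card Q : ℂ) * (∑ s : zpowers y, conj ((χ : Q → ℂ) s) - conj ((χ : Q → ℂ) 1)) := h1
  rw [h2, h3] at h1'
  have hc : (Nat.card Q : ℂ) ≠ 0 := by exact_mod_cast Nat.card_pos.ne'
  rw [Core.classInner_def, eq_div_iff (by norm_num)]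
  push_cast at h1'
  have h4 : (Nat.card Q : ℂ)⁻¹ * (∑ g : Q, sing 5 Q g * conj ((χ : Q → ℂ) g)) * 10 =
      (Nat.card Q : ℂ)⁻¹ * (10 * ∑ g : Q, sing 5 Q g * conj ((χ : Q → ℂ) g)) := by ring
  rw [h4, h1', ← mul_assoc, inv_mul_cancel₀ hc, one_mul]

theorem coef_one (hQ : Nat.card Q = 20160)
    (h5 : ∀ y : Q, orderOf y = 5 → Nat.card (centralizer ({y} : Set Q)) = 5) {y : Q} (hy : orderOf y = 5) :
    classInner (sing 5 Q) (fun _ : Q => (1 : ℂ)) = 4 / 10 := by
  classical
  have : Fact (Nat.Prime 5) := ⟨by norm_num⟩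
  have := Fintype.ofFinite (zpowers y)
  have h1 := avg (not_25 hQ) (self_of h5) hy (f := fun _ => (1 : ℂ)) (fun _ _ => rfl)
  rw [card_norm hQ h5 hy] at h1
  have h2 : ∑ s : zpowers y, (1 : ℂ) = 5 := by
    rw [Finset.sum_const, Finset.card_univ, ← Nat.card_eq_fintype_card, Nat.card_zpowers, hy]
    norm_num
  have h1' : ((10 : ℕ) : ℂ) * ∑ g : Q, sing 5 Q g * (1 : ℂ) = (Nat.card Q : ℂ) * (∑ s : zpowers y, (1 : ℂ) - 1) := h1
  rw [h2] at h1'
  have hc : (Nat.card Q : ℂ) ≠ 0 := by exact_mod_cast Nat.card_pos.ne'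
  rw [Core.classInner_def, eq_div_iff (by norm_num), map_one]
  push_cast at h1'
  have h4 : (Nat.card Q : ℂ)⁻¹ * (∑ g : Q, sing 5 Q g * (1 : ℂ)) * 10 =
      (Nat.card Q : ℂ)⁻¹ * (10 * ∑ g : Q, sing 5 Q g * (1 : ℂ)) := by ring
  rw [h4, h1', ← mul_assoc, inv_mul_cancel₀ hc, one_mul]
  norm_num

/-- two terms of Bessel's inequality -/
theorem bessel (hQ : Nat.card Q = 20160)
    (h5 : ∀ y : Q, orderOf y = 5 → Nat.card (centralizer ({y} : Set Q)) = 5) {y : Q} (hy : orderOf y = 5)
    (χ : IrrCharacter Q) (hχ : (χ : Q → ℂ) ≠ fun _ => 1) :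
    Complex.normSq (classInner (sing 5 Q) (χ : Q → ℂ)) ≤ 24 / 100 := by
  classical
  have : Finite (IrrCharacter Q) := Core.finite_irr
  have := Fintype.ofFinite (IrrCharacter Q)
  have h1 := Core.classInner_eq_sum (isClassFunction_sing 5 Q) (isClassFunction_sing 5 Q)
  have h2 : classInner (sing 5 Q) (sing 5 Q) = 4 / 10 := by
    rw [← coef_one hQ h5 hy, Core.classInner_def, Core.classInner_def]
    congr 1
    refine Finset.sum_congr rfl fun g _ => ?_
    rw [sing_mul_conj, map_one, mul_one]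
  have h3 : ∀ χ : IrrCharacter Q, classInner (sing 5 Q) (χ : Q → ℂ) * conj (classInner (sing 5 Q) (χ : Q → ℂ)) =
      ((Complex.normSq (classInner (sing 5 Q) (χ : Q → ℂ)) : ℝ) : ℂ) := fun χ => Complex.mul_conj _
  rw [h2, Finset.sum_congr rfl fun χ _ => h3 χ, ← Complex.ofReal_sum] at h1
  have h4 : ∑ χ : IrrCharacter Q, Complex.normSq (classInner (sing 5 Q) (χ : Q → ℂ)) = 4 / 10 := by
    have h5 : (((4 / 10 : ℝ)) : ℂ) = ((∑ χ : IrrCharacter Q, Complex.normSq (classInner (sing 5 Q) (χ : Q → ℂ)) : ℝ) : ℂ) := by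
      rw [← h1]
      push_cast
      rfl
    exact (Complex.ofReal_injective h5).symm
  let χ₁ : IrrCharacter Q := ⟨fun _ => 1, Basic.isIrrCharacter_one⟩
  have hne : χ ≠ χ₁ := fun h => hχ (congrArg Subtype.val h)
  have h6 : Complex.normSq (classInner (sing 5 Q) (χ₁ : Q → ℂ)) = 16 / 100 := by
    have : classInner (sing 5 Q) (χ₁ : Q → ℂ) = ((4 / 10 : ℝ) : ℂ) := by
      rw [show (χ₁ : Q → ℂ) = fun _ => 1 from rfl, coef_one hQ h5 hy]
      push_cast
      rfl
    rw [this, Complex.normSq_ofReal]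
    norm_num
  have h7 : Complex.normSq (classInner (sing 5 Q) (χ : Q → ℂ)) + Complex.normSq (classInner (sing 5 Q) (χ₁ : Q → ℂ)) ≤
      ∑ χ : IrrCharacter Q, Complex.normSq (classInner (sing 5 Q) (χ : Q → ℂ)) := by
    rw [← Finset.sum_pair (f := fun χ : IrrCharacter Q => Complex.normSq (classInner (sing 5 Q) (χ : Q → ℂ))) hne]
    exact Finset.sum_le_sum_of_subset_of_nonneg (Finset.subset_univ _) fun _ _ _ => Complex.normSq_nonneg _
  rw [h4, h6] at h7
  linarith

/-- the coefficients at the characters outside the principal block -/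
theorem coef_mem (hM : IsPModular 2 M) (hQ : Nat.card Q = 20160)
    (h5 : ∀ y : Q, orderOf y = 5 → Nat.card (centralizer ({y} : Set Q)) = 5)
    (h2 : ∀ t : Q, orderOf t = 2 → IsPGroup 2 (centralizer ({t} : Set Q))) {y : Q} (hy : orderOf y = 5)
    (χ : IrrCharacter Q) (hχ : χ ∉ principalBlock M Q) :
    MemLocalIdeal M (classInner (sing 5 Q) (χ : Q → ℂ)) := by
  have hprime : M.IsPrime := Local.isPrime_of_isPModular hM
  have : Fact (Nat.Prime 5) := ⟨by norm_num⟩
  have hχ1 : (χ : Q → ℂ) ≠ fun _ => 1 := by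
    intro h
    apply hχ
    have h1 : χ = ⟨fun _ => 1, Basic.isIrrCharacter_one⟩ := Subtype.ext h
    rw [h1]
    exact PrincipalSection.one_mem_principalBlock
  obtain ⟨m, hm⟩ := coef_formula hQ h5 hy χ
  have hloc := loc_sing (r := 5) hM (by norm_num) χ
  have hb := bessel hQ h5 hy χ hχ1
  rw [deg_eq hM hQ h2 χ hχ] at hm
  rw [hm] at hloc hb ⊢
  have h3 : Complex.normSq ((5 * (m : ℂ) - ((64 : ℕ) : ℂ)) / 10) = (5 * (m : ℝ) - 64) ^ 2 / 100 := by
    have : (5 * (m : ℂ) - ((64 : ℕ) : ℂ)) / 10 = (((5 * (m : ℝ) - 64) / 10 : ℝ) : ℂ) := by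
      push_cast
      ring
    rw [this, Complex.normSq_ofReal]
    ring
  rw [h3] at hb
  have h4 : (5 * (m : ℝ) - 64) ^ 2 ≤ 24 := by linarith
  have h5' : (5 * (m : ℤ) - 64) ^ 2 ≤ 24 := by exact_mod_cast h4
  have h6 : m = 12 ∨ m = 13 := by
    have h7 : 5 * (m : ℤ) - 64 ≤ 4 := by nlinarith
    have h8 : -4 ≤ 5 * (m : ℤ) - 64 := by nlinarith
    omega
  rcases h6 with rfl | rfl
  · have h7 : (5 * ((12 : ℕ) : ℂ) - ((64 : ℕ) : ℂ)) / 10 = ((-2 : ℤ) : ℂ) * ((5 : ℕ) : ℂ)⁻¹ := by
      push_cast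
      norm_num
    rw [h7]
    refine Local.memLocalIdeal_mul_right ?_ (Local.memLocalRing_inv_natCast hM (by norm_num))
    rw [Local.memLocalIdeal_intCast_iff hM]
    norm_num
  · exfalso
    have h7 : ((1 : ℤ) : ℂ) = ((10 : ℕ) : ℂ) * ((5 * ((13 : ℕ) : ℂ) - ((64 : ℕ) : ℂ)) / 10) := by
      push_cast
      norm_num
    have h8 : MemLocalIdeal M ((1 : ℤ) : ℂ) := by
      rw [h7]
      refine Local.memLocalIdeal_mul_right ?_ hloc
      rw [Local.memLocalIdeal_natCast_iff hM]
      norm_num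
    rw [Local.memLocalIdeal_intCast_iff hM] at h8
    norm_num at h8

/-- **The number of `Q`.** -/
theorem main (hM : IsPModular 2 M) (hQ : Nat.card Q = 20160)
    (h5 : ∀ y : Q, orderOf y = 5 → Nat.card (centralizer ({y} : Set Q)) = 5)
    (h2 : ∀ t : Q, orderOf t = 2 → IsPGroup 2 (centralizer ({t} : Set Q))) {y : Q} (hy : orderOf y = 5) :
    ¬ MemLocalIdeal M (Nsum M 5 Q y) := by
  classical
  have hprime : M.IsPrime := Local.isPrime_of_isPModular hM
  have : Finite (IrrCharacter Q) := Core.finite_irr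
  have := Fintype.ofFinite (IrrCharacter Q)
  have h1 : Nsum M 5 Q y = ∑ χ : IrrCharacter Q with χ ∈ principalBlock M Q,
      classInner (sing 5 Q) (χ : Q → ℂ) * (χ : Q → ℂ) y := by
    rw [sum_block_aux, Nsum_eq]
    congr 1
    rw [Finset.sum_filter]
    refine Finset.sum_congr rfl fun s _ => ?_
    by_cases hs : 2 ∣ orderOf s
    · rw [if_neg (not_not.2 hs), sing_of_not_dvd, zero_mul]
      intro h3
      rw [self_of h5 s h3] at hs
      norm_num at hs
    · rw [if_pos hs]
  have h3 : ∑ χ : IrrCharacter Q, classInner (sing 5 Q) (χ : Q → ℂ) * (χ : Q → ℂ) y = 1 := by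
    have h4 := congrFun (Core.classFunction_eq_sum (isClassFunction_sing 5 Q)) y
    rw [sing_of_dvd (by rw [hy]), Finset.sum_apply] at h4
    rw [h4]
    rfl
  rw [← Finset.sum_filter_add_sum_filter_not Finset.univ (fun χ : IrrCharacter Q => χ ∈ principalBlock M Q),
    ← h1] at h3
  have h4 : MemLocalIdeal M (∑ χ : IrrCharacter Q with χ ∉ principalBlock M Q,
      classInner (sing 5 Q) (χ : Q → ℂ) * (χ : Q → ℂ) y) := by
    refine Local.memLocalIdeal_sum fun χ hχ => ?_
    refine Local.memLocalIdeal_mul_right (coef_mem hM hQ h5 h2 hy χ (Finset.mem_filter.1 hχ).2) ?_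
    exact Local.memLocalRing_of_isIntegral (Central.isIntegral_irr χ.2 y)
  intro h6
  have h7 := Local.memLocalIdeal_add h6 h4
  rw [h3] at h7
  exact Local.not_memLocalIdeal_one h7

end

end Cfsg.Agent.H333.EB.L34
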