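import Cfsg.Agent.H333.EB.L34
import Cfsg.Agent.H474.ONC.Main
import Cfsg.Agent.H326.Four.RowON
import Cfsg.Agent.UGT.ThEP.KFacts

/-!
# TEAM EB: the O'Nan group (helper333)

`r = 5`, `x = v` of order 4, `C(v) = J = 4·L₃(4)`.

* `evenB_on`: `EvenB S` for `S ≅ O'N`.
-/

set_option autoImplicit false
set_option maxRecDepth 100000

namespace Cfsg.Agent.H333.EB.ON

open Cfsg Subgroup
open Cfsg.Spor (ON)
open Cfsg.Agent.H684.EB
open Cfsg.Agent.H333.EB.P1 Cfsg.Agent.H333.EB.Quo
open Cfsg.Agent.ONType.Psl (PSL3)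
open Cfsg.Agent.KFacts.ON.Words (v)
open Cfsg.Agent.KFacts.ON.Struct (J mem_J)
open Cfsg.Agent.KFacts.ON.Cent (finite_ON)
open Cfsg.Agent.H474.ONC (x5 y5 order_x5 y5_conj order_v loc5 card_ON card_cent_x5 no_sq_five)

universe u

theorem map_cent {A B : Type*} [Group A] [Group B] (ε : A ≃* B) (a : A) :
    (centralizer ({a} : Set A)).map ε.toMonoidHom = centralizer ({ε a} : Set B) := by
  ext b
  rw [mem_map, mem_centralizer_singleton_iff]
  constructor
  · rintro ⟨c, hc, rfl⟩
    rw [mem_centralizer_singleton_iff] at hc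
    show ε c * ε a = ε a * ε c
    rw [← map_mul, hc, map_mul]
  · intro hb
    refine ⟨ε.symm b, ?_, ε.apply_symm_apply b⟩
    rw [mem_centralizer_singleton_iff]
    apply ε.injective
    rw [map_mul, map_mul, ε.apply_symm_apply, hb]

theorem card_cent {A B : Type*} [Group A] [Group B] (ε : A ≃* B) (a : A) :
    Nat.card (centralizer ({a} : Set A)) = Nat.card (centralizer ({ε a} : Set B)) := by
  rw [← map_cent ε a]
  exact Nat.card_congr ((centralizer ({a} : Set A)).equivMapOfInjective ε.toMonoidHom ε.injective).toEquiv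

/-- the elements of order 5 are conjugate -/
theorem conj_five {y : ON} (hy : orderOf y = 5) : IsConj x5 y := by
  have := finite_ON
  have h5 : Fact (Nat.Prime 5) := ⟨by norm_num⟩
  obtain ⟨g, hg⟩ := CpAutON.Gen.conj_into no_sq_five hy order_x5
  have h1 : IsConj y (g * y * g⁻¹) := isConj_iff.2 ⟨g, rfl⟩
  have hsq : ∀ k : ℕ, IsConj (x5 ^ k) (x5 ^ (2 * k)) := by
    intro k
    refine isConj_iff.2 ⟨y5, ?_⟩
    rw [← conj_pow, y5_conj, pow_mul]
  have hx : x5 ^ 5 = 1 := by rw [← order_x5, pow_orderOf_eq_one]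
  have c2 : IsConj x5 (x5 ^ 2) := by simpa using hsq 1
  have c4 : IsConj x5 (x5 ^ 4) := c2.trans (by simpa using hsq 2)
  have c3 : IsConj x5 (x5 ^ 3) := by
    have h2 := hsq 4
    have h3 : x5 ^ (2 * 4) = x5 ^ 3 := by
      rw [show 2 * 4 = 5 + 3 by norm_num, pow_add, hx, one_mul]
    rw [h3] at h2
    exact c4.trans h2
  obtain ⟨n, hn⟩ := ((isOfFinOrder_of_finite x5).mem_powers_iff_mem_zpowers).2 hg
  have hn' : x5 ^ n = g * y * g⁻¹ := hn
  have h6 : x5 ^ n = x5 ^ (n % 5) := by
    have h := (pow_mod_orderOf x5 n).symm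
    rwa [order_x5] at h
  rw [← hn', h6] at h1
  have h7 : n % 5 < 5 := Nat.mod_lt _ (by norm_num)
  have h8 : y ≠ 1 := by
    rintro rfl
    rw [orderOf_one] at hy
    norm_num at hy
  generalize n % 5 = m at h1 h7
  interval_cases m
  · rw [pow_zero] at h1
    exact absurd (isConj_one_right.1 h1.symm) h8
  · rw [pow_one] at h1
    exact h1.symm
  · exact c2.trans h1.symm
  · exact c3.trans h1.symm
  · exact c4.trans h1.symm

/-- the number of `C(v)` -/
theorem nsum {C : Type u} [Group C] [Finite C] (φ : C ≃* J) {M : Ideal AlgInt} (hM : IsPModular 2 M) {y : C}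
    (hy : orderOf y = 5) : ¬ MemLocalIdeal M (Nsum M 5 C y) := by
  have := finite_ON
  have hf2 : Fact (Nat.Prime 2) := ⟨Nat.prime_two⟩
  obtain ⟨π, hπ, hker⟩ := H326.Four.RowON.exists_proj
  let ρ : C →* PSL3 := π.comp φ.toMonoidHom
  have hρ : Function.Surjective ρ := hπ.comp φ.surjective
  have hU : ρ.ker ≤ center C := by
    intro c hc
    have h1 : φ c ∈ π.ker := hc
    rw [hker] at h1
    rw [mem_center_iff]
    intro g
    apply φ.injective
    rw [map_mul, map_mul]
    exact mem_center_iff.1 h1 (φ g)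
  have hUp : IsPGroup 2 ρ.ker := by
    intro c
    refine ⟨2, Subtype.ext ?_⟩
    have h1 : φ (c : C) ∈ π.ker := c.2
    rw [hker] at h1
    have h2 := H474.ONC.center_J h1
    apply φ.injective
    apply Subtype.ext
    show ((φ ((c : C) ^ 2 ^ 2) : J) : ON) = ((φ 1 : J) : ON)
    rw [map_pow, map_one, Subgroup.coe_pow, OneMemClass.coe_one]
    obtain ⟨n, hn⟩ := h2
    have hn' : v ^ n = ((φ (c : C) : J) : ON) := hn
    have hv : v ^ 4 = 1 := by rw [← order_v, pow_orderOf_eq_one]
    rw [← hn', ← zpow_natCast, ← zpow_mul, mul_comm, zpow_mul, zpow_natCast, show (2 : ℕ) ^ 2 = 4 by norm_num, hv,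
      one_zpow]
  have hy2 : ¬ 2 ∣ orderOf y := by
    rw [hy]
    norm_num
  let ε : C ⧸ ρ.ker ≃* PSL3 := QuotientGroup.quotientKerEquivOfSurjective ρ hρ
  rw [Nsum_quot hM 5 hU hUp hy2]
  have := Fintype.ofFinite (C ⧸ ρ.ker)
  have := Fintype.ofFinite C
  refine L34.main hM ?_ ?_ ?_ ?_
  · rw [Nat.card_congr ε.toEquiv, ONType.PslCard.card_PSL3]
  · intro z hz
    rw [card_cent ε z]
    exact BpSpor.LFour.card_five (by rw [MulEquiv.orderOf_eq, hz])
  · intro t ht
    refine UGT.ThEP.p2 ε.symm t ?_ ?_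
    · rw [← pow_two, ← ht, pow_orderOf_eq_one]
    · rintro rfl
      rw [orderOf_one] at ht
      norm_num at ht
  · rw [orderOf_mk (p := 2) hU hUp hy2, hy]

/-- **The O'Nan group.** -/
theorem evenB_on {S : Type u} [Group S] (h : Cfsg.Spor.IsoON S) : EvenB S := by
  intro G _ _ N _ _ hN _ hidx k hk M hM
  obtain ⟨f⟩ := hN
  obtain ⟨e0⟩ := h
  let e : N ≃* ON := f.symm.trans e0
  have := finite_ON
  have h5 : Fact (Nat.Prime 5) := ⟨by norm_num⟩
  have hcard : Nat.card N = 460815505920 := by rw [Nat.card_congr e.toEquiv, card_ON]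
  have hy : orderOf (e.symm x5) = 5 := by rw [MulEquiv.orderOf_eq, order_x5]
  have hc180 : Nat.card (centralizer ({e.symm x5} : Set N)) = 180 := by
    rw [card_cent e, e.apply_symm_apply, card_cent_x5]
  have hxy : Commute (e.symm v) (e.symm x5) := by
    have h1 : v * x5 = x5 * v := loc5.comm
    show e.symm v * e.symm x5 = e.symm x5 * e.symm v
    rw [← map_mul, h1, map_mul]
  refine P1.concl (r := 5) hM hk N hidx (by norm_num) (by rw [hcard]; norm_num) hy ?_ ?_ (x := e.symm v) ?_ hxy ?_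
  · intro y' hy'
    have h1 : IsConj x5 (e y') := conj_five (by rw [MulEquiv.orderOf_eq, hy'])
    obtain ⟨c, hc⟩ := isConj_iff.1 h1
    refine isConj_iff.2 ⟨e.symm c, ?_⟩
    rw [← map_inv, ← map_mul, ← map_mul, hc, e.symm_apply_apply]
  · have h1 := index_mul_card (centralizer ({e.symm x5} : Set N))
    rw [hc180, hcard] at h1
    omega
  · exact ⟨2, by rw [MulEquiv.orderOf_eq, order_v]; norm_num⟩
  · have hJ : (centralizer ({e.symm v} : Set N)).map e.toMonoidHom = J := by
      rw [map_cent, e.apply_symm_apply]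
      rfl
    let φ : centralizer ({e.symm v} : Set N) ≃* J :=
      ((centralizer ({e.symm v} : Set N)).equivMapOfInjective e.toMonoidHom e.injective).trans
        (MulEquiv.subgroupCongr hJ)
    refine nsum φ hM ?_
    rw [← orderOf_coe]
    exact hy

end Cfsg.Agent.H333.EB.ON
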