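import Cfsg.Agent.H684.EB.Base
import Cfsg.Agent.H610.EB.Crit
import Cfsg.Agent.H612.SectionR
import Cfsg.Agent.Blocks.PrincipalConstGen
import Cfsg.Agent.Blocks.PrincipalSection
import Cfsg.Agent.Blocks.SectionSum
import Cfsg.Agent.Blocks.SectionCount
import Cfsg.Agent.Blocks.CentralSylow
import Cfsg.Agent.Blocks.ExistsModular
import Cfsg.Agent.Blocks.Orthogonality
import Cfsg.Agent.Blocks.Osima

/-!
# The criterion (P1N) of TEAM EB (helper333)

`r` is an odd prime, `r ∥ |S|`, all the elements of order `r` of `S` are conjugate to `y`, `x` is a 2-element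
commuting with `y`, `C = C_S(x)`. `Ψ g = 1` if `r ∣ o(g)` and `0` otherwise.

* `bk M G x y`: the sum of `χ x * conj (χ y)` over the principal block;
* `Nsum M r C y`: the mean over `C` of `bk M C y s`, `s` 2-regular and `r`-singular;
* `coef_mul`: `r a² = a χ(xy)`, `a` the coefficient of `Ψ` at `χ`;
* `sum_coef`: the `B₀(2)`-part of `Ψ` has `r * norm = Nsum M r C y`;
* `concl`: if `Nsum M r C y` is not in the local ideal then `Concl M G N k` for all `G` over `N ≅ S`.
-/

set_option autoImplicit false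
set_option linter.unusedSectionVars false

namespace Cfsg.Agent.H333.EB.P1

open Cfsg Subgroup
open Cfsg.Agent.Characters
open Cfsg.Agent.Blocks
open scoped ComplexConjugate

universe u v

/-- the kernel of the principal block -/
noncomputable def bk (M : Ideal AlgInt) (G : Type u) [Group G] (x y : G) : ℂ :=
  ∑ᶠ χ ∈ principalBlock M G, (χ : G → ℂ) x * conj ((χ : G → ℂ) y)

open scoped Classical in
/-- the indicator of the `r`-singular elements -/
noncomputable def sing (r : ℕ) (G : Type u) [Group G] : G → ℂ := fun g => if r ∣ orderOf g then 1 else 0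

open scoped Classical in
/-- the mean of the kernel of the principal block over the `r`-singular 2-regular elements -/
noncomputable def Nsum (M : Ideal AlgInt) (r : ℕ) (C : Type u) [Group C] (y : C) : ℂ :=
  (Nat.card C : ℂ)⁻¹ * ∑ᶠ s : C, if ¬ 2 ∣ orderOf s then sing r C s * bk M C y s else 0

open scoped Classical in
theorem Nsum_eq (M : Ideal AlgInt) (r : ℕ) (C : Type u) [Group C] [Fintype C] (y : C) : Nsum M r C y =
    (Nat.card C : ℂ)⁻¹ * ∑ s : C with ¬ 2 ∣ orderOf s, sing r C s * bk M C y s := by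
  rw [Nsum, finsum_eq_sum_of_fintype, Finset.sum_filter]

/-! ### Sums over sections -/

section Sec

variable {S : Type u} [Group S] [Fintype S] {p : ℕ} [hp : Fact p.Prime]

open scoped Classical in
theorem sum_section (f : S → ℂ) (hf : IsClassFunction S f) (x : S) (hx : ∃ k : ℕ, orderOf x = p ^ k)
    (h0 : ∀ g z : S, IsPPart p g z → ¬ IsConj x z → f g = 0) :
    ∑ g : S, f g = ((centralizer ({x} : Set S)).index : ℂ) *
      ∑ s : centralizer ({x} : Set S) with ¬ p ∣ orderOf s, f (x * (s : S)) := by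
  rw [SectionSum.sum_eq_sum_sections p f]
  -- the inner sum
  let F : S → ℂ := fun x' => ∑ y ∈ Finset.univ.filter (fun y : S => Commute x' y ∧ ¬ p ∣ orderOf y), f (x' * y)
  have hF : ∀ t : S, F (t * x * t⁻¹) = F x := by
    intro t
    refine Finset.sum_bij' (fun s _ => t⁻¹ * s * t) (fun s _ => t * s * t⁻¹) ?_ ?_ ?_ ?_ ?_
    · intro s hs
      obtain ⟨h1, h2⟩ := (Finset.mem_filter.1 hs).2
      refine Finset.mem_filter.2 ⟨Finset.mem_univ _, ?_, ?_⟩
      · have h3 := h1.eq
        have h4 : t⁻¹ * (t * x * t⁻¹ * s) * t = t⁻¹ * (s * (t * x * t⁻¹)) * t := by rw [h3]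
        have h5 : x * (t⁻¹ * s * t) = t⁻¹ * s * t * x := by
          calc x * (t⁻¹ * s * t) = t⁻¹ * (t * x * t⁻¹ * s) * t := by group
            _ = t⁻¹ * (s * (t * x * t⁻¹)) * t := h4
            _ = t⁻¹ * s * t * x := by group
        exact h5
      · have h3 : orderOf (t⁻¹ * s * t) = orderOf s := by
          have := MulEquiv.orderOf_eq (MulAut.conj t⁻¹) s
          simpa using this
        rwa [h3]
    · intro s hs
      obtain ⟨h1, h2⟩ := (Finset.mem_filter.1 hs).2
      refine Finset.mem_filter.2 ⟨Finset.mem_univ _, ?_, ?_⟩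
      · have h3 := h1.eq
        have h5 : t * x * t⁻¹ * (t * s * t⁻¹) = t * s * t⁻¹ * (t * x * t⁻¹) := by
          calc t * x * t⁻¹ * (t * s * t⁻¹) = t * (x * s) * t⁻¹ := by group
            _ = t * (s * x) * t⁻¹ := by rw [h3]
            _ = t * s * t⁻¹ * (t * x * t⁻¹) := by group
        exact h5
      · have h3 : orderOf (t * s * t⁻¹) = orderOf s := by
          have := MulEquiv.orderOf_eq (MulAut.conj t) s
          simpa using this
        rwa [h3]
    · intro s _
      group
    · intro s _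
      group
    · intro s _
      have h1 : t * x * t⁻¹ * s = t * (x * (t⁻¹ * s * t)) * t⁻¹ := by group
      rw [h1, hf]
  have h1 : ∀ x' ∈ Finset.univ.filter (fun x : S => ∃ k : ℕ, orderOf x = p ^ k),
      F x' = if IsConj x x' then F x else 0 := by
    intro x' hx'
    have hx'' := (Finset.mem_filter.1 hx').2
    split_ifs with hc
    · obtain ⟨t, rfl⟩ := isConj_iff.1 hc
      exact hF t
    · refine Finset.sum_eq_zero fun s hs => ?_
      obtain ⟨h1, h2⟩ := (Finset.mem_filter.1 hs).2
      exact h0 _ x' (PPart.isPPart_mul h1 hx'' h2) hc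
  rw [Finset.sum_congr rfl h1, ← Finset.sum_filter, Finset.sum_const, nsmul_eq_mul]
  have h2 : (Finset.filter (fun x' => IsConj x x')
      (Finset.univ.filter (fun x : S => ∃ k : ℕ, orderOf x = p ^ k))).card =
      (centralizer ({x} : Set S)).index := by
    rw [← Induced.ncard_conj_eq_index, ← Set.ncard_coe_finset]
    congr 1
    ext x'
    rw [Finset.mem_coe, Finset.mem_filter, Finset.mem_filter]
    constructor
    · rintro ⟨-, h⟩
      exact h
    · intro h
      refine ⟨⟨Finset.mem_univ _, ?_⟩, h⟩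
      obtain ⟨t, rfl⟩ := isConj_iff.1 h
      obtain ⟨k, hk⟩ := hx
      refine ⟨k, ?_⟩
      rw [← hk]
      have := MulEquiv.orderOf_eq (MulAut.conj t) x
      simpa using this
  rw [h2]
  congr 1
  show ∑ y ∈ Finset.univ.filter (fun y : S => Commute x y ∧ ¬ p ∣ orderOf y), f (x * y) = _
  symm
  refine Finset.sum_bij (fun (s : centralizer ({x} : Set S)) _ => (s : S)) ?_ ?_ ?_ ?_
  · intro s hs
    have h1 := (Finset.mem_filter.1 hs).2
    refine Finset.mem_filter.2 ⟨Finset.mem_univ _, ?_, ?_⟩
    · exact (show Commute (s : S) x from mem_centralizer_singleton_iff.1 s.2).symm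
    · rwa [orderOf_coe]
  · intro a _ b _ hab
    exact Subtype.ext hab
  · intro s hs
    obtain ⟨h1, h2⟩ := (Finset.mem_filter.1 hs).2
    refine ⟨⟨s, mem_centralizer_singleton_iff.2 h1.symm.eq⟩, Finset.mem_filter.2 ⟨Finset.mem_univ _, ?_⟩, rfl⟩
    rwa [← orderOf_coe]
  · intro s _
    rfl

variable {M : Ideal AlgInt}

theorem bk_conj (x y t : S) : bk M S x (t * y * t⁻¹) = bk M S x y := by
  unfold bk
  congr 1
  funext χ
  congr 1
  funext _
  rw [Basic.irr_conj χ.2]

theorem bk_eq_zero (hM : IsPModular p M) {x g h z : S} (hg : IsPPart p g x) (hh : IsPPart p h z)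
    (hn : ¬ IsConj x z) : bk M S g h = 0 :=
  Orthogonality.block_orthogonality hM (principalBlock M S)
    (Osima.memLocalRing_blockCoeff hM PrincipalSection.isPBlock_principalBlock) hg hh hn

/-- the values of the kernel at a section -/
theorem bk_section (hM : IsPModular p M) {x : S} (hx : ∃ k : ℕ, orderOf x = p ^ k)
    (y s : centralizer ({x} : Set S)) (hy : ¬ p ∣ orderOf y) (hs : ¬ p ∣ orderOf s) :
    bk M S (x * (y : S)) (x * (s : S)) = bk M (centralizer ({x} : Set S)) y s :=
  PrincipalSection.sum_principalBlock_section hM x hx rfl y s hy hs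

open scoped Classical in
theorem sum_block_aux [Fintype (IrrCharacter S)] (Ψ : S → ℂ) (g₀ : S) :
    ∑ χ : IrrCharacter S with χ ∈ principalBlock M S, classInner Ψ (χ : S → ℂ) * (χ : S → ℂ) g₀ =
      (Nat.card S : ℂ)⁻¹ * ∑ g : S, Ψ g * bk M S g₀ g := by
  have h2 : ∀ g : S, Ψ g * bk M S g₀ g =
      ∑ χ : IrrCharacter S with χ ∈ principalBlock M S, Ψ g * ((χ : S → ℂ) g₀ * conj ((χ : S → ℂ) g)) := by
    intro g
    rw [bk, Orthogonality.finsum_mem_eq_sum_filter, Finset.mul_sum]
  rw [Finset.sum_congr rfl fun g _ => h2 g, Finset.sum_comm, Finset.mul_sum]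
  refine Finset.sum_congr rfl fun χ _ => ?_
  rw [Core.classInner_def, mul_assoc, Finset.sum_mul]
  congr 1
  refine Finset.sum_congr rfl fun g _ => ?_
  ring

open scoped Classical in
/-- the `B₀`-projection of a class function at `x y` -/
theorem sum_block (hM : IsPModular p M) [Fintype (IrrCharacter S)] {Ψ : S → ℂ} (hΨ : IsClassFunction S Ψ) {x : S}
    (hx : ∃ k : ℕ, orderOf x = p ^ k) (y : centralizer ({x} : Set S)) (hy : ¬ p ∣ orderOf y) :
    ∑ χ : IrrCharacter S with χ ∈ principalBlock M S, classInner Ψ (χ : S → ℂ) * (χ : S → ℂ) (x * (y : S)) =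
      (Nat.card (centralizer ({x} : Set S)) : ℂ)⁻¹ * ∑ s : centralizer ({x} : Set S) with ¬ p ∣ orderOf s,
        Ψ (x * (s : S)) * bk M (centralizer ({x} : Set S)) y s := by
  have hpp : ∀ s : centralizer ({x} : Set S), ¬ p ∣ orderOf s → IsPPart p (x * (s : S)) x := by
    intro s hs
    refine PPart.isPPart_mul (show Commute (s : S) x from mem_centralizer_singleton_iff.1 s.2).symm hx ?_
    rwa [orderOf_coe]
  have h1 := sum_block_aux (M := M) Ψ (x * (y : S))
  rw [h1, sum_section (p := p) (fun g => Ψ g * bk M S (x * (y : S)) g) ?_ x hx ?_]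
  · rw [← mul_assoc]
    congr 1
    · have h3 : (Nat.card S : ℂ) = ((centralizer ({x} : Set S)).index : ℂ) * Nat.card (centralizer ({x} : Set S)) := by
        exact_mod_cast (index_mul_card (centralizer ({x} : Set S))).symm
      have h4 : ((centralizer ({x} : Set S)).index : ℂ) ≠ 0 := by
        exact_mod_cast index_ne_zero_of_finite
      rw [h3, mul_inv, mul_comm, ← mul_assoc, mul_inv_cancel₀ h4, one_mul]
    · refine Finset.sum_congr rfl fun s hs => ?_
      rw [bk_section hM hx y s hy (Finset.mem_filter.1 hs).2]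
  · intro g t
    show Ψ _ * bk M S _ _ = Ψ _ * bk M S _ _
    rw [hΨ, bk_conj]
  · intro g z hz hn
    show Ψ g * bk M S _ g = 0
    rw [bk_eq_zero hM (hpp y hy) hz hn, mul_zero]

end Sec

/-! ### The `r`-singular elements, `r ∥ |S|` -/

theorem sing_of_dvd {r : ℕ} {G : Type u} [Group G] {g : G} (h : r ∣ orderOf g) : sing r G g = 1 := if_pos h

theorem sing_of_not_dvd {r : ℕ} {G : Type u} [Group G] {g : G} (h : ¬ r ∣ orderOf g) : sing r G g = 0 := if_neg h

theorem sing_congr {r : ℕ} {G : Type u} {H : Type v} [Group G] [Group H] {g : G} {h : H}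
    (he : r ∣ orderOf g ↔ r ∣ orderOf h) : sing r G g = sing r H h := by
  by_cases hg : r ∣ orderOf g
  · rw [sing_of_dvd hg, sing_of_dvd (he.1 hg)]
  · rw [sing_of_not_dvd hg, sing_of_not_dvd (fun h' => hg (he.2 h'))]

theorem isClassFunction_sing (r : ℕ) (G : Type u) [Group G] : IsClassFunction G (sing r G) := by
  intro g t
  refine sing_congr ?_
  have : orderOf (t * g * t⁻¹) = orderOf g := by
    have := MulEquiv.orderOf_eq (MulAut.conj t) g
    simpa using this
  rw [this]

theorem conj_sing (r : ℕ) (G : Type u) [Group G] (g : G) : conj (sing r G g) = sing r G g := by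
  by_cases hg : r ∣ orderOf g
  · rw [sing_of_dvd hg, map_one]
  · rw [sing_of_not_dvd hg, map_zero]

theorem sing_mul_conj (r : ℕ) (G : Type u) [Group G] (g : G) : sing r G g * conj (sing r G g) = sing r G g := by
  by_cases hg : r ∣ orderOf g
  · rw [sing_of_dvd hg, map_one, one_mul]
  · rw [sing_of_not_dvd hg, zero_mul]

section R

variable {S : Type u} [Group S] [Fintype S] {r : ℕ} [hr : Fact r.Prime]

/-- the centralizer of an element of order `r` has a normal `r`-complement -/
theorem compl (hr1 : ¬ r ^ 2 ∣ Nat.card S) {x : S} (hx : orderOf x = r) :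
    (pPrimeCore r (centralizer ({x} : Set S))).index = r := by
  let X : centralizer ({x} : Set S) := ⟨x, mem_centralizer_singleton_iff.2 rfl⟩
  have hX : orderOf X = r := by rw [← orderOf_coe]; exact hx
  have hXP : IsPGroup r (zpowers X) := IsPGroup.of_card (n := 1) (by rw [Nat.card_zpowers, hX, pow_one])
  obtain ⟨P, hP⟩ := hXP.exists_le_sylow
  have hXc : zpowers X ≤ center (centralizer ({x} : Set S)) := by
    rw [zpowers_le, mem_center_iff]
    intro g
    exact Subtype.ext (mem_centralizer_singleton_iff.1 g.2)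
  have hPr : Nat.card P = r := by
    obtain ⟨n, hn⟩ := IsPGroup.iff_card.1 P.isPGroup'
    have h1 : Nat.card P ∣ Nat.card S :=
      (card_subgroup_dvd_card (P : Subgroup (centralizer ({x} : Set S)))).trans (card_subgroup_dvd_card _)
    have h2 : r ∣ Nat.card P := by
      have h3 := card_dvd_of_le hP
      rwa [Nat.card_zpowers, hX] at h3
    have h4 : n ≤ 1 := by
      by_contra h5
      apply hr1
      refine dvd_trans ?_ h1
      rw [hn]
      exact pow_dvd_pow r (by omega)
    rcases n with _ | _ | n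
    · rw [hn, pow_zero] at h2
      exact absurd (Nat.dvd_one.1 h2) hr.out.ne_one
    · rw [hn, zero_add, pow_one]
    · omega
  have hPX : (P : Subgroup (centralizer ({x} : Set S))) = zpowers X := by
    symm
    apply eq_of_le_of_card_ge hP
    rw [Nat.card_zpowers, hX]
    exact hPr.le
  obtain ⟨K, hKn, hKi, hKc, -⟩ := CentralSylow.exists_complement P (by rw [hPX]; exact hXc)
  rw [hPr] at hKi
  have h1 : K ≤ pPrimeCore r (centralizer ({x} : Set S)) := Lib.Cores.le_pPrimeCore hKn hKc
  have h2 : (pPrimeCore r (centralizer ({x} : Set S))).index ∣ r := by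
    have h3 := index_dvd_of_le h1
    rwa [hKi] at h3
  rcases (Nat.dvd_prime hr.out).1 h2 with h3 | h3
  · exfalso
    have h4 : pPrimeCore r (centralizer ({x} : Set S)) = ⊤ := index_eq_one.1 h3
    have h5 : X ∈ pPrimeCore r (centralizer ({x} : Set S)) := by rw [h4]; exact mem_top _
    have h6 := (Lib.Cores.pPrimeCore_coprime (G := centralizer ({x} : Set S)) r)
    have h7 : orderOf X ∣ Nat.card (pPrimeCore r (centralizer ({x} : Set S))) := by
      have := orderOf_dvd_natCard (⟨X, h5⟩ : pPrimeCore r (centralizer ({x} : Set S)))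
      rwa [Subgroup.orderOf_mk] at this
    rw [hX] at h7
    exact (Nat.Prime.coprime_iff_not_dvd hr.out).1 h6.symm h7
  · exact h3

theorem mem_core (hr1 : ¬ r ^ 2 ∣ Nat.card S) {x : S} (hx : orderOf x = r) (h : centralizer ({x} : Set S)) :
    h ∈ pPrimeCore r (centralizer ({x} : Set S)) ↔ ¬ r ∣ orderOf h :=
  SectionCount.mem_pPrimeCore_iff r ⟨1, by rw [compl hr1 hx, pow_one]⟩ h

/-- the members of the principal `r`-block are constant on `x C(x)_{r'}` -/
theorem irr_const {M' : Ideal AlgInt} (hM' : IsPModular r M') (hr1 : ¬ r ^ 2 ∣ Nat.card S) {x : S}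
    (hx : orderOf x = r) {h : S} (hc : Commute x h) (hh : ¬ r ∣ orderOf h) (χ : IrrCharacter S)
    (hχ : χ ∈ principalBlock M' S) : (χ : S → ℂ) (x * h) = (χ : S → ℂ) x := by
  have h1 := PrincipalConstGen.irr_const r M' hM' (u := x) ⟨1, by rw [hx, pow_one]⟩
    ((pPrimeCore r (centralizer ({x} : Set S))).map (centralizer ({x} : Set S)).subtype) ?_ ?_ ?_
    (y := 1) (n := h) (Commute.one_right x) (by rw [orderOf_one]; exact fun h => hr.out.ne_one (Nat.dvd_one.1 h))
    ?_ χ hχ
  · rwa [mul_one] at h1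
  · rintro _ ⟨n, hn, rfl⟩
    exact (show Commute (n : S) x from mem_centralizer_singleton_iff.1 n.2).symm
  · rintro c hc _ ⟨n, hn, rfl⟩
    have hcC : c ∈ centralizer ({x} : Set S) := mem_centralizer_singleton_iff.2 hc.symm.eq
    refine ⟨⟨c, hcC⟩ * n * ⟨c, hcC⟩⁻¹, ?_, rfl⟩
    exact (Lib.Cores.pPrimeCore_normal r).conj_mem n hn _
  · rw [card_map_of_injective (subtype_injective _)]
    exact Lib.Cores.pPrimeCore_coprime r
  · refine ⟨⟨h, mem_centralizer_singleton_iff.2 hc.symm.eq⟩, (mem_core hr1 hx _).2 ?_, rfl⟩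
    rwa [Subgroup.orderOf_mk]

/-- the coefficients at the principal `r`-block -/
theorem coef_eq {M' : Ideal AlgInt} (hM' : IsPModular r M') (hr1 : ¬ r ^ 2 ∣ Nat.card S) {y : S}
    (hy : orderOf y = r) (hcl : ∀ y' : S, orderOf y' = r → IsConj y y') (χ : IrrCharacter S)
    (hχ : χ ∈ principalBlock M' S) : classInner (sing r S) (χ : S → ℂ) = (r : ℂ)⁻¹ * conj ((χ : S → ℂ) y) := by
  classical
  have hy1 : y ≠ 1 := by
    rintro rfl
    rw [orderOf_one] at hy
    exact hr.out.ne_one hy.symm
  rw [Core.classInner_def, sum_section (p := r) (fun g => sing r S g * conj ((χ : S → ℂ) g)) ?_ y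
    ⟨1, by rw [hy, pow_one]⟩ ?_]
  · have h1 : ∀ s ∈ Finset.univ.filter (fun s : centralizer ({y} : Set S) => ¬ r ∣ orderOf s),
        sing r S (y * (s : S)) * conj ((χ : S → ℂ) (y * (s : S))) = conj ((χ : S → ℂ) y) := by
      intro s hs
      have hs' := (Finset.mem_filter.1 hs).2
      have hc : Commute y (s : S) := (show Commute (s : S) y from mem_centralizer_singleton_iff.1 s.2).symm
      have hs2 : ¬ r ∣ orderOf (s : S) := by rwa [orderOf_coe]
      rw [irr_const hM' hr1 hy hc hs2 χ hχ, sing_of_dvd, one_mul]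
      rw [hc.orderOf_mul_eq_mul_orderOf_of_coprime, hy]
      · exact dvd_mul_right _ _
      · rw [hy]
        exact (Nat.Prime.coprime_iff_not_dvd hr.out).2 hs2
    rw [Finset.sum_congr rfl h1, Finset.sum_const, nsmul_eq_mul]
    have h2 : (Finset.univ.filter (fun s : centralizer ({y} : Set S) => ¬ r ∣ orderOf s)).card =
        Nat.card (pPrimeCore r (centralizer ({y} : Set S))) := by
      rw [← Fintype.card_subtype, ← Nat.card_eq_fintype_card]
      exact Nat.card_congr (Equiv.subtypeEquivRight fun s => (mem_core hr1 hy s).symm)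
    rw [h2]
    have h3 : (Nat.card S : ℂ) = ((centralizer ({y} : Set S)).index : ℂ) *
        ((Nat.card (pPrimeCore r (centralizer ({y} : Set S))) : ℂ) * r) := by
      have h4 := index_mul_card (centralizer ({y} : Set S))
      have h5 := (pPrimeCore r (centralizer ({y} : Set S))).card_mul_index
      rw [compl hr1 hy] at h5
      rw [← h5] at h4
      exact_mod_cast h4.symm
    have h6 : ((centralizer ({y} : Set S)).index : ℂ) ≠ 0 := by exact_mod_cast index_ne_zero_of_finite
    have h7 : (Nat.card (pPrimeCore r (centralizer ({y} : Set S))) : ℂ) ≠ 0 := by exact_mod_cast Nat.card_pos.ne'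
    have h8 : (r : ℂ) ≠ 0 := by exact_mod_cast hr.out.ne_zero
    rw [h3]
    field_simp
  · intro g t
    show sing r S _ * _ = _
    rw [isClassFunction_sing r S, Basic.irr_conj χ.2]
  · intro g z hz hn
    show sing r S g * _ = 0
    obtain ⟨w, hw1, hw2, ⟨k, hk⟩, hw3⟩ := hz
    have h1 : k ≤ 1 := by
      by_contra h2
      apply hr1
      refine dvd_trans ?_ (orderOf_dvd_natCard z)
      rw [hk]
      exact pow_dvd_pow r (by omega)
    rcases k with _ | _ | k
    · rw [pow_zero, orderOf_eq_one_iff] at hk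
      rw [sing_of_not_dvd, zero_mul]
      rwa [← hw1, hk, one_mul]
    · exact absurd (hcl z (by rw [hk, zero_add, pow_one])) hn
    · omega

theorem norm_sing_eq {M' : Ideal AlgInt} (hM' : IsPModular r M') (hr1 : ¬ r ^ 2 ∣ Nat.card S) {y : S}
    (hy : orderOf y = r) (hcl : ∀ y' : S, orderOf y' = r → IsConj y y') :
    classInner (sing r S) (sing r S) = (r : ℂ)⁻¹ := by
  have hprime : M'.IsPrime := Local.isPrime_of_isPModular hM'
  have h1 := coef_eq hM' hr1 hy hcl ⟨fun _ => 1, Basic.isIrrCharacter_one⟩ PrincipalSection.one_mem_principalBlock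
  have h2 : classInner (sing r S) (sing r S) = classInner (sing r S) (fun _ : S => (1 : ℂ)) := by
    rw [Core.classInner_def, Core.classInner_def]
    congr 1
    refine Finset.sum_congr rfl fun g _ => ?_
    rw [sing_mul_conj, map_one, mul_one]
  rw [h2]
  have h3 : classInner (sing r S) (fun _ : S => (1 : ℂ)) = (r : ℂ)⁻¹ * conj (1 : ℂ) := h1
  rw [h3, map_one, mul_one]

/-- the coefficients outside the principal `r`-block vanish -/
theorem coef_zero {M' : Ideal AlgInt} (hM' : IsPModular r M') (hr1 : ¬ r ^ 2 ∣ Nat.card S) {y : S}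
    (hy : orderOf y = r) (hcl : ∀ y' : S, orderOf y' = r → IsConj y y') (χ : IrrCharacter S)
    (hχ : χ ∉ principalBlock M' S) : classInner (sing r S) (χ : S → ℂ) = 0 := by
  classical
  have : Finite (IrrCharacter S) := Core.finite_irr
  have := Fintype.ofFinite (IrrCharacter S)
  have h8 : (r : ℂ) ≠ 0 := by exact_mod_cast hr.out.ne_zero
  have h1 := Core.classInner_eq_sum (isClassFunction_sing r S) (isClassFunction_sing r S)
  rw [norm_sing_eq hM' hr1 hy hcl,
    ← Finset.sum_filter_add_sum_filter_not Finset.univ (fun χ : IrrCharacter S => χ ∈ principalBlock M' S)] at h1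
  have h2 : ∑ χ : IrrCharacter S with χ ∈ principalBlock M' S, classInner (sing r S) (χ : S → ℂ) *
      conj (classInner (sing r S) (χ : S → ℂ)) = (r : ℂ)⁻¹ := by
    have h3 : ∀ χ ∈ Finset.univ.filter (fun χ : IrrCharacter S => χ ∈ principalBlock M' S),
        classInner (sing r S) (χ : S → ℂ) * conj (classInner (sing r S) (χ : S → ℂ)) =
        ((r : ℂ)⁻¹ * (r : ℂ)⁻¹) * ((χ : S → ℂ) (y * ((1 : centralizer ({y} : Set S)) : S)) *
          conj ((χ : S → ℂ) (y * ((1 : centralizer ({y} : Set S)) : S)))) := by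
      intro χ hχ
      rw [coef_eq hM' hr1 hy hcl χ (Finset.mem_filter.1 hχ).2, map_mul, Complex.conj_conj, map_inv₀,
        Complex.conj_natCast, OneMemClass.coe_one, mul_one]
      ring
    rw [Finset.sum_congr rfl h3, ← Finset.mul_sum, ← Orthogonality.finsum_mem_eq_sum_filter]
    have h1r : ¬ r ∣ orderOf (1 : centralizer ({y} : Set S)) := by
      rw [orderOf_one]
      exact fun h => hr.out.ne_one (Nat.dvd_one.1 h)
    have h4 := PrincipalSection.sum_principalBlock_section hM' y ⟨1, by rw [hy, pow_one]⟩ rfl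
      (1 : centralizer ({y} : Set S)) 1 h1r h1r
    rw [h4, PrincipalSection.sum_principalBlock_of_pComplement hM' ⟨1, by rw [compl hr1 hy, pow_one]⟩ h1r h1r]
    have h5 : (Nat.card (centralizer ({y} : Set S))).factorization r = 1 := by
      apply le_antisymm
      · by_contra h6
        apply hr1
        refine dvd_trans ?_ (card_subgroup_dvd_card (centralizer ({y} : Set S)))
        refine dvd_trans (pow_dvd_pow r (by omega : 2 ≤ (Nat.card (centralizer ({y} : Set S))).factorization r)) ?_
        exact Nat.ordProj_dvd _ _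
      · rw [← hr.out.pow_dvd_iff_le_factorization Nat.card_pos.ne', pow_one]
        have := orderOf_dvd_natCard (⟨y, mem_centralizer_singleton_iff.2 rfl⟩ : centralizer ({y} : Set S))
        rwa [← orderOf_coe, hy] at this
    rw [h5, pow_one]
    field_simp
  rw [h2, left_eq_add] at h1
  have h3 : ∀ χ : IrrCharacter S, classInner (sing r S) (χ : S → ℂ) * conj (classInner (sing r S) (χ : S → ℂ)) =
      ((Complex.normSq (classInner (sing r S) (χ : S → ℂ)) : ℝ) : ℂ) := fun χ => Complex.mul_conj _
  rw [Finset.sum_congr rfl fun χ _ => h3 χ, ← Complex.ofReal_sum, Complex.ofReal_eq_zero,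
    Finset.sum_eq_zero_iff_of_nonneg fun χ _ => Complex.normSq_nonneg _] at h1
  exact Complex.normSq_eq_zero.1 (h1 χ (Finset.mem_filter.2 ⟨Finset.mem_univ _, hχ⟩))

/-- `r a² = a χ(x y)` -/
theorem coef_mul (hr1 : ¬ r ^ 2 ∣ Nat.card S) {y : S} (hy : orderOf y = r)
    (hcl : ∀ y' : S, orderOf y' = r → IsConj y y') {x : S} (hx : ¬ r ∣ orderOf x) (hxy : Commute x y)
    (χ : IrrCharacter S) : (r : ℂ) * classInner (sing r S) (χ : S → ℂ) ^ 2 =
      classInner (sing r S) (χ : S → ℂ) * (χ : S → ℂ) (x * y) := by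
  obtain ⟨M', hM'⟩ := ExistsModular.exists_isPModular hr.out
  have h8 : (r : ℂ) ≠ 0 := by exact_mod_cast hr.out.ne_zero
  by_cases hχ : χ ∈ principalBlock M' S
  · have h1 : (χ : S → ℂ) y⁻¹ = (χ : S → ℂ) y := by
      obtain ⟨c, hc⟩ := isConj_iff.1 (hcl y⁻¹ (by rw [orderOf_inv, hy]))
      rw [← hc, Basic.irr_conj χ.2]
    have h2 : conj ((χ : S → ℂ) y) = (χ : S → ℂ) y := by
      rw [← Orthogonality.irr_apply_inv χ.2, h1]
    rw [coef_eq hM' hr1 hy hcl χ hχ, h2, hxy.eq, irr_const hM' hr1 hy hxy.symm hx χ hχ]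
    field_simp
  · rw [coef_zero hM' hr1 hy hcl χ hχ]
    ring

end R

section Two

variable {S : Type u} [Group S] [Fintype S] {r : ℕ} [hr : Fact r.Prime] {M : Ideal AlgInt}

/-- `y` as an element of `C(x)` -/
@[reducible] def yC {x y : S} (hxy : Commute x y) : centralizer ({x} : Set S) :=
  ⟨y, mem_centralizer_singleton_iff.2 hxy.symm.eq⟩

open scoped Classical in
/-- the norm of the `B₀(2)`-part -/
theorem sum_coef [Fintype (IrrCharacter S)] (hM : IsPModular 2 M) (hr2 : r ≠ 2) (hr1 : ¬ r ^ 2 ∣ Nat.card S) {y : S}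
    (hy : orderOf y = r) (hcl : ∀ y' : S, orderOf y' = r → IsConj y y') {x : S} (hx : ∃ k : ℕ, orderOf x = 2 ^ k)
    (hxy : Commute x y) :
    (r : ℂ) * ∑ χ : IrrCharacter S with χ ∈ principalBlock M S, classInner (sing r S) (χ : S → ℂ) ^ 2 =
      Nsum M r (centralizer ({x} : Set S)) (yC hxy) := by
  have : Fact (Nat.Prime 2) := ⟨Nat.prime_two⟩
  have h2r : ∀ k : ℕ, ¬ r ∣ 2 ^ k := fun k h =>
    hr2 ((Nat.prime_dvd_prime_iff_eq hr.out Nat.prime_two).1 (hr.out.dvd_of_dvd_pow h))
  have hxr : ¬ r ∣ orderOf x := by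
    obtain ⟨k, hk⟩ := hx
    rw [hk]
    exact h2r k
  rw [Finset.mul_sum, Finset.sum_congr rfl fun χ _ => coef_mul hr1 hy hcl hxr hxy χ]
  have h1 := sum_block (M := M) hM (isClassFunction_sing r S) hx (yC hxy) (by
    rw [← orderOf_coe]
    show ¬ 2 ∣ orderOf y
    rw [hy]
    exact fun h => hr2 ((Nat.prime_dvd_prime_iff_eq Nat.prime_two hr.out).1 h).symm)
  refine h1.trans ?_
  rw [Nsum_eq]
  congr 1
  refine Finset.sum_congr rfl fun s hs => ?_
  congr 1
  refine sing_congr ?_
  have hs' := (Finset.mem_filter.1 hs).2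
  have hc : Commute x (s : S) := (show Commute (s : S) x from mem_centralizer_singleton_iff.1 s.2).symm
  rw [hc.orderOf_mul_eq_mul_orderOf_of_coprime, orderOf_coe]
  · constructor
    · intro h
      exact (hr.out.dvd_mul.1 h).resolve_left hxr
    · exact fun h => h.mul_left _
  · obtain ⟨k, hk⟩ := hx
    rw [hk, orderOf_coe]
    exact Nat.Coprime.pow_left _ ((Nat.Prime.coprime_iff_not_dvd Nat.prime_two).2 hs')

/-- local integrality -/
theorem loc_sing (hM : IsPModular 2 M) (hr2 : r ≠ 2) (χ : IrrCharacter S) :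
    MemLocalRing M (classInner (sing r S) (χ : S → ℂ)) := by
  obtain ⟨e, he⟩ := H612.SectionR.exists_OE (G := S)
  have hodd : Odd r := hr.out.odd_of_ne_two hr2
  have h1 : sing r S = H612.SectionR.sec e {g : S | Odd (orderOf g) ∧ r ∣ orderOf g} := by
    funext g
    have h2 : g ^ e ∈ {g : S | Odd (orderOf g) ∧ r ∣ orderOf g} ↔ r ∣ orderOf g := by
      constructor
      · rintro ⟨-, h⟩
        exact h.trans (orderOf_pow_dvd e)
      · intro h
        refine ⟨he.odd g, ?_⟩
        obtain ⟨j, hj⟩ := he.two g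
        have h3 : g ^ (2 ^ j * orderOf (g ^ e)) = 1 := by
          have h4 : g = g * (g ^ e)⁻¹ * g ^ e := by group
          have h5 : Commute (g * (g ^ e)⁻¹) (g ^ e) :=
            (Commute.self_pow g e).mul_left ((Commute.refl (g ^ e)).inv_left)
          rw [h4, h5.mul_pow, pow_mul, hj, one_pow, one_mul, mul_comm, pow_mul, ← h4, pow_orderOf_eq_one, one_pow]
        have h4 : r ∣ 2 ^ j * orderOf (g ^ e) := h.trans (orderOf_dvd_of_pow_eq_one h3)
        refine (hr.out.dvd_mul.1 h4).resolve_left fun h5 => ?_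
        exact hr2 ((Nat.prime_dvd_prime_iff_eq hr.out Nat.prime_two).1 (hr.out.dvd_of_dvd_pow h5))
    by_cases hg : r ∣ orderOf g
    · rw [sing_of_dvd hg, H612.SectionR.sec_of_mem (h2.2 hg)]
    · rw [sing_of_not_dvd hg, H612.SectionR.sec_of_notMem (fun h => hg (h2.1 h))]
  rw [h1]
  refine H612.SectionR.loc_sec he hM ?_ (fun x hx => hx.1) χ
  rintro g x ⟨h2, h3⟩
  have : orderOf (g * x * g⁻¹) = orderOf x := by
    have := MulEquiv.orderOf_eq (MulAut.conj g) x
    simpa using this
  exact ⟨by rwa [this], by rwa [this]⟩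

open scoped Classical in
/-- the degree of the `B₀(2)`-part is even -/
theorem sum_deg [Fintype (IrrCharacter S)] (hM : IsPModular 2 M) {y : S}
    (hcl : ∀ y' : S, orderOf y' = r → IsConj y y') (h2 : 2 ∣ (centralizer ({y} : Set S)).index) :
    MemLocalIdeal M (∑ χ : IrrCharacter S with χ ∈ principalBlock M S,
      classInner (sing r S) (χ : S → ℂ) * (χ : S → ℂ) 1) := by
  have hprime : M.IsPrime := Local.isPrime_of_isPModular hM
  have hloc : ∀ g : S, MemLocalRing M (blockCoeff (principalBlock M S) g) :=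
    Osima.memLocalRing_blockCoeff hM PrincipalSection.isPBlock_principalBlock
  rw [sum_block_aux, Finset.mul_sum]
  have h1 : ∀ g : S, (Nat.card S : ℂ)⁻¹ * (sing r S g * bk M S 1 g) =
      sing r S g * blockCoeff (principalBlock M S) g := by
    intro g
    rw [Basic.blockCoeff_def, bk]
    ring
  rw [Finset.sum_congr rfl fun g _ => h1 g]
  refine PrincipalConst.memLocalIdeal_sum_classFunction ?_ fun g => ?_
  · intro g t
    show _ * _ = _ * _
    rw [isClassFunction_sing r S, Orthogonality.isClassFunction_blockCoeff]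
  · by_cases hg : r ∣ orderOf g
    · rw [sing_of_dvd hg, one_mul]
      refine Local.memLocalIdeal_mul_right ?_ (hloc g)
      have h3 : 2 ∣ (centralizer ({g} : Set S)).index := by
        obtain ⟨m, hm⟩ := hg
        have hm0 : m ≠ 0 := by
          rintro rfl
          rw [mul_zero] at hm
          exact (orderOf_pos g).ne' hm
        have h4 : orderOf (g ^ m) = r := by
          rw [orderOf_pow_of_dvd hm0 (Dvd.intro_left r hm.symm), hm,
            Nat.mul_div_cancel _ (Nat.pos_of_ne_zero hm0)]
        have h5 := hcl _ h4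
        have h6 : (centralizer ({g ^ m} : Set S)).index = (centralizer ({y} : Set S)).index := by
          rw [← Induced.ncard_conj_eq_index, ← Induced.ncard_conj_eq_index]
          congr 1
          ext z
          exact ⟨fun h => h5.trans h, fun h => h5.symm.trans h⟩
        rw [← h6] at h2
        refine h2.trans (index_dvd_of_le ?_)
        intro c hc
        rw [mem_centralizer_singleton_iff] at hc ⊢
        exact ((show Commute c g from hc).pow_right m).eq
      obtain ⟨c, hc⟩ := h3
      rw [hc, Nat.cast_mul]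
      refine Local.memLocalIdeal_mul_right ?_ (Local.memLocalRing_natCast c)
      exact Local.memLocalIdeal_of_mem (M := M) hM.2.2
    · rw [sing_of_not_dvd hg, zero_mul, mul_zero]
      exact Local.memLocalIdeal_zero

/-- **Criterion (P1N).** -/
theorem concl {G : Type u} [Group G] [Fintype G] (hM : IsPModular 2 M) {k : ℕ} (hk : H610.EB.IsK G k)
    (N : Subgroup G) [hNn : N.Normal] [Fintype N] (hidx : ∃ j : ℕ, N.index = 2 ^ j) (hr2 : r ≠ 2)
    (hr1 : ¬ r ^ 2 ∣ Nat.card N) {y : N} (hy : orderOf y = r) (hcl : ∀ y' : N, orderOf y' = r → IsConj y y')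
    (h2 : 2 ∣ (centralizer ({y} : Set N)).index) {x : N} (hx : ∃ k : ℕ, orderOf x = 2 ^ k) (hxy : Commute x y)
    (hN : ¬ MemLocalIdeal M (Nsum M r (centralizer ({x} : Set N)) (yC hxy))) : H610.EB.Concl M G N k := by
  classical
  have hprime : M.IsPrime := Local.isPrime_of_isPModular hM
  have : Finite (IrrCharacter N) := Core.finite_irr
  have := Fintype.ofFinite (IrrCharacter N)
  have hres : (fun s : N => sing r G (s : G)) = sing r N := by
    funext s
    refine sing_congr ?_
    rw [orderOf_coe]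
  refine H610.EB.of_local_norm hM N hidx hk (isClassFunction_sing r G) (loc_sing hM hr2) ?_ ?_
  · intro g
    refine sing_congr ?_
    have h1 : orderOf (g ^ k) = orderOf g :=
      Nat.Coprime.orderOf_pow (Nat.Coprime.coprime_dvd_left (orderOf_dvd_natCard g) hk.coprime.symm)
    rw [h1]
  · rw [hres]
    intro hmem
    apply hN
    rw [← sum_coef hM hr2 hr1 hy hcl hx hxy]
    refine Local.memLocalIdeal_mul_left (Local.memLocalRing_natCast r) ?_
    have h3 := sum_deg (r := r) hM hcl h2
    rw [Finset.sum_filter] at h3 ⊢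
    have h4 := Local.memLocalIdeal_mul_left (Local.memLocalRing_of_memLocalIdeal h3) h3
    rw [← pow_two] at h4
    have h5 := Local.memLocalIdeal_add hmem (by convert h4)
    rw [sub_add_cancel] at h5
    convert h5

end Two

end Cfsg.Agent.H333.EB.P1
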