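import Cfsg.Agent.H333.EB.P1
import Cfsg.Agent.H644.CentralQuot

/-!
# The number `Nsum` and a central `p`-subgroup (helper333)

`U` a central `p`-subgroup of `C`, `Q = C ⧸ U`.

* `bk_quot`: `bk M C y s = |U| * bk M Q y s` for `p`-regular `y, s`;
* `Nsum_quot`: `Nsum M r C y = Nsum M r Q y`.
-/

set_option autoImplicit false
set_option linter.unusedSectionVars false

namespace Cfsg.Agent.H333.EB.Quo

open Cfsg Subgroup
open Cfsg.Agent.Characters
open Cfsg.Agent.Blocks
open Cfsg.Agent.H644.CentralQuot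
open Cfsg.Agent.H333.EB.P1
open scoped ComplexConjugate

universe u v

section

variable {C : Type u} [Group C] [Fintype C] {p : ℕ} [hp : Fact p.Prime] {M : Ideal AlgInt}

theorem mem_infl (hM : IsPModular p M) {U : Subgroup C} [U.Normal] (hU : U ≤ center C) (hUp : IsPGroup p U)
    (θ : IrrCharacter (C ⧸ U)) : infl U θ ∈ principalBlock M C ↔ θ ∈ principalBlock M (C ⧸ U) :=
  sameBlock_infl_iff hM hU hUp ⟨fun _ => 1, Basic.isIrrCharacter_one⟩ θ

theorem conj_bk (x y : C) : conj (bk M C x y) = bk M C y x :=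
  Orthogonality.conj_finsum_block (principalBlock M C) x y

open scoped Classical in
theorem bk_eq_sum [Fintype (IrrCharacter C)] (x y : C) :
    bk M C x y = ∑ χ : IrrCharacter C, (if χ ∈ principalBlock M C then conj ((χ : C → ℂ) y) else 0) * (χ : C → ℂ) x := by
  rw [bk, Orthogonality.finsum_mem_eq_sum_filter, Finset.sum_filter]
  refine Finset.sum_congr rfl fun χ _ => ?_
  split_ifs
  · rw [mul_comm]
  · rw [zero_mul]

theorem push_of_dvd {U : Subgroup C} [U.Normal] (F : C → ℂ) {x : C ⧸ U} (hx : p ∣ orderOf x) :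
    push p U F x = 0 := by
  let _ := Classical.decEq (C ⧸ U)
  unfold push
  refine Finset.sum_eq_zero fun g hg => ?_
  have hg' := (Finset.mem_filter.1 hg).2
  refine Blau.regPart_of_dvd ?_
  rw [← hg'] at hx
  by_contra h
  exact not_dvd_orderOf_mk (U := U) h hx

theorem bk_quot (hM : IsPModular p M) {U : Subgroup C} [U.Normal] (hU : U ≤ center C) (hUp : IsPGroup p U)
    {y s : C} (hy : ¬ p ∣ orderOf y) (hs : ¬ p ∣ orderOf s) :
    bk M C s y = (Nat.card U : ℂ) * bk M (C ⧸ U) (QuotientGroup.mk s) (QuotientGroup.mk y) := by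
  classical
  have := Fintype.ofFinite (C ⧸ U)
  have : Finite (IrrCharacter C) := Core.finite_irr
  have := Fintype.ofFinite (IrrCharacter C)
  have : Finite (IrrCharacter (C ⧸ U)) := Core.finite_irr
  have := Fintype.ofFinite (IrrCharacter (C ⧸ U))
  -- the function on `C`
  let F : C → ℂ := fun x => bk M C x y
  have hFsum : F = ∑ χ : IrrCharacter C, (if χ ∈ principalBlock M C then conj ((χ : C → ℂ) y) else 0) • (χ : C → ℂ) := by
    funext x
    rw [Finset.sum_apply]
    exact bk_eq_sum x y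
  have hFcf : IsClassFunction C F := by
    intro g t
    show bk M C _ _ = bk M C _ _
    rw [← conj_bk y, bk_conj, conj_bk]
  have hF0 : ∀ x : C, p ∣ orderOf x → F x = 0 := by
    intro x hx
    show bk M C x y = 0
    rw [← conj_bk, show bk M C y x = 0 from Orthogonality.weak_block_orthogonality hM (principalBlock M C)
      (Osima.memLocalRing_blockCoeff hM PrincipalSection.isPBlock_principalBlock) hy hx, map_zero]
  have hinner : ∀ χ : IrrCharacter C, classInner F (χ : C → ℂ) =
      if χ ∈ principalBlock M C then conj ((χ : C → ℂ) y) else 0 := by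
    intro χ
    rw [hFsum, Core.classInner_sum_smul_irr]
  -- the function on the quotient
  have hP := isClassFunction_push' (p := p) (U := U) hFcf
  have hP0 : ∀ x : C ⧸ U, p ∣ orderOf x → push p U F x = 0 := fun x hx => push_of_dvd F hx
  have hPi : ∀ θ : IrrCharacter (C ⧸ U), classInner (push p U F) (θ : C ⧸ U → ℂ) =
      (Nat.card U : ℂ) * if θ ∈ principalBlock M (C ⧸ U) then conj ((θ : C ⧸ U → ℂ) (QuotientGroup.mk y)) else 0 := by
    intro θ
    have h1 : classInner F (infl U θ : C → ℂ) =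
        if θ ∈ principalBlock M (C ⧸ U) then conj ((θ : C ⧸ U → ℂ) (QuotientGroup.mk y)) else 0 := by
      rw [hinner]
      by_cases hθ : θ ∈ principalBlock M (C ⧸ U)
      · rw [if_pos hθ, if_pos ((mem_infl hM hU hUp θ).2 hθ)]
        rfl
      · rw [if_neg hθ, if_neg (fun h => hθ ((mem_infl hM hU hUp θ).1 h))]
    rw [← h1, Core.classInner_def, Core.classInner_def, inv_card_eq U, mul_assoc]
    congr 2
    have h2 : ∑ g : C ⧸ U, push p U F g * conj ((θ : C ⧸ U → ℂ) g) =
        ∑ g : C ⧸ U with ¬ p ∣ orderOf g, push p U F g * conj ((θ : C ⧸ U → ℂ) g) := by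
      rw [Finset.sum_filter]
      refine Finset.sum_congr rfl fun g _ => ?_
      by_cases h : p ∣ orderOf g
      · rw [if_neg (not_not.2 h), hP0 g h, zero_mul]
      · rw [if_pos h]
    have h3 : ∑ g : C, F g * conj ((infl U θ : C → ℂ) g) =
        ∑ g : C with ¬ p ∣ orderOf g, F g * conj ((infl U θ : C → ℂ) g) := by
      rw [Finset.sum_filter]
      refine Finset.sum_congr rfl fun g _ => ?_
      by_cases h : p ∣ orderOf g
      · rw [if_neg (not_not.2 h), hF0 g h, zero_mul]
      · rw [if_pos h]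
    rw [h2, h3, sum_reg_mk hU hUp]
    refine Finset.sum_congr rfl fun g hg => ?_
    rw [push_mk hU hUp F (Finset.mem_filter.1 hg).2]
    rfl
  have h4 := congrFun (Core.classFunction_eq_sum hP) (QuotientGroup.mk s)
  rw [push_mk hU hUp F hs, Finset.sum_apply] at h4
  have h5 : F s = bk M C s y := rfl
  rw [← h5, h4, bk_eq_sum, Finset.mul_sum]
  refine Finset.sum_congr rfl fun θ _ => ?_
  rw [Pi.smul_apply, smul_eq_mul, hPi, mul_assoc]

theorem orderOf_mk {U : Subgroup C} [U.Normal] (hU : U ≤ center C) (hUp : IsPGroup p U) {s : C}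
    (hs : ¬ p ∣ orderOf s) : orderOf (QuotientGroup.mk s : C ⧸ U) = orderOf s := by
  apply Nat.dvd_antisymm (orderOf_map_dvd (QuotientGroup.mk' U) s)
  apply orderOf_dvd_of_pow_eq_one
  refine eq_of_mk_eq hU hUp (p := p) ?_ ?_ ?_
  · exact fun h => hs (h.trans (orderOf_pow_dvd _))
  · rw [orderOf_one]
    exact fun h => hp.out.ne_one (Nat.dvd_one.1 h)
  · exact pow_orderOf_eq_one ((QuotientGroup.mk' U) s)

end

variable {C : Type u} [Group C] [Finite C] {M : Ideal AlgInt}

theorem Nsum_quot (hM : IsPModular 2 M) (r : ℕ) {U : Subgroup C} [U.Normal] (hU : U ≤ center C)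
    (hUp : IsPGroup 2 U) {y : C} (hy : ¬ 2 ∣ orderOf y) :
    Nsum M r C y = Nsum M r (C ⧸ U) (QuotientGroup.mk y) := by
  classical
  have : Fact (Nat.Prime 2) := ⟨Nat.prime_two⟩
  have := Fintype.ofFinite C
  have := Fintype.ofFinite (C ⧸ U)
  rw [Nsum_eq, Nsum_eq, inv_card_eq U, mul_comm (Nat.card U : ℂ), mul_assoc]
  congr 1
  rw [sum_reg_mk hU hUp, Finset.mul_sum]
  refine Finset.sum_congr rfl fun s hs => ?_
  have hs' := (Finset.mem_filter.1 hs).2
  rw [bk_quot hM hU hUp hs' hy, sing_congr (g := s) (h := (QuotientGroup.mk s : C ⧸ U)) (by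
    rw [orderOf_mk (p := 2) hU hUp hs'])]
  ring

end Cfsg.Agent.H333.EB.Quo
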